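import Cfsg.Agent.H65.Disp.Rgd
import Cfsg.Agent.KFacts.RgdBorelTits
import Cfsg.Agent.Lib.NormalAbelian

/-!
# A dominant root with central elements (helper162, S3828)

`R : RGD cs h p T n X` with a filtration `F`.
* `exists_threshold` : the smallest `s` with `F x s ≠ 1`;
* `exists_dom` : a positive dominant root `x` and `u ∈ X x`, `u ≠ 1`, commuting with all positive root groups;
* `full_support`, `exists_lt_coeff`, `exists_word` : for a connected diagram not of type `A₂` there is a list `ω` of all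
  the nodes, without repetitions, with `0 ≤ w⁻¹ x`, `w` the product of the simple reflections in this order.
-/

set_option autoImplicit false
set_option linter.unusedSectionVars false

namespace Cfsg.Agent.H162.CCR.Dom

open CoxeterSystem Cfsg.Agent.ChevalleyStructure.CoxeterGeom Cfsg.Agent.Tits.Roots Cfsg.Agent.Tits.Core
  Cfsg.Agent.Tits.RootComb Cfsg.Agent.Tits.Exchange Cfsg.Agent.Nodes.Reps Cfsg.Agent.Nodes.BNOf
  Cfsg.Agent.Nodes.StabComb Cfsg.Agent.Nodes.Bruhat Cfsg.Agent.Nodes.OppDec Cfsg.Agent.Nodes.LeviDec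
  Cfsg.Agent.KFacts.RgdBorelTits

open scoped commutatorElement

variable {I W Y : Type*} [Fintype I] [DecidableEq I] [Group W] [Group Y] {M : CoxeterMatrix I}
  {cs : CoxeterSystem M W} {A : I → I → ℤ} {h : IsCartan M A} {p : ℕ} {T : Subgroup Y} {n : I → Y}
  {X : (I → ℤ) → Subgroup Y}

section Thr

variable {R : RGD cs h p T n X} {F : (I → ℤ) → ℝ → Subgroup Y} (hF : Filt R F)

/-- the threshold -/
noncomputable def thr (F : (I → ℤ) → ℝ → Subgroup Y) (x : I → ℤ) : ℝ := sInf {s | F x s ≠ ⊥}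

include hF in
theorem exists_threshold [Finite Y] {x : I → ℤ} (hx : IsRoot cs h x) :
    0 < thr F x ∧ F x (thr F x) ≠ ⊥ ∧ ∀ t, t < thr F x → F x t = ⊥ := by
  have hne : {s | F x s ≠ ⊥}.Nonempty := by
    obtain ⟨C, -, hC⟩ := hF.full
    exact ⟨C, fun h0 => X_ne_bot R hx (le_bot_iff.1 ((hC x C hx le_rfl).trans h0.le))⟩
  have hbdd : BddBelow {s | F x s ≠ ⊥} := ⟨0, fun s hs => by
    by_contra hlt
    exact hs (hF.neg x s hx (not_le.1 hlt).le)⟩
  have hclosed : IsClosed {s | F x s ≠ ⊥} := by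
    have e : {s | F x s ≠ ⊥} = ⋃ u ∈ {u : Y | u ≠ 1}, {s | u ∈ F x s} := by
      ext s
      simp only [Set.mem_ofPred_eq, Set.mem_iUnion]
      constructor
      · intro hs
        obtain ⟨u, hu⟩ := Subgroup.ne_bot_iff_exists_ne_one.1 hs
        exact ⟨u, fun h1 => hu (Subtype.ext h1), u.2⟩
      · rintro ⟨u, hu1, hu⟩ h0
        rw [h0, Subgroup.mem_bot] at hu
        exact hu1 hu
    rw [e]
    exact Set.Finite.isClosed_biUnion (Set.toFinite _) fun u _ => hF.closed x hx u
  have hmem : F x (thr F x) ≠ ⊥ := hclosed.csInf_mem hne hbdd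
  refine ⟨?_, hmem, fun t ht => ?_⟩
  · by_contra hlt
    exact hmem (hF.neg x _ hx (not_lt.1 hlt))
  · by_contra h0
    exact absurd (csInf_le hbdd h0) (not_le.2 ht)

include hF in
theorem thr_rep {x : I → ℤ} (hx : IsRoot cs h x) (w : W) : thr F (rep cs h w x) = thr F x := by
  obtain ⟨g, hg⟩ := exists_rp cs R.nsys w
  unfold thr
  congr 1
  ext s
  have h1 := hF.conj_rp hg hx s
  show F (rep cs h w x) s ≠ ⊥ ↔ F x s ≠ ⊥
  rw [← h1, not_iff_not]
  unfold cj
  exact Subgroup.map_eq_bot_iff_of_injective _ (MulAut.conj g).injective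

end Thr

/-! ### the dominant root -/

theorem ht_pos {x : I → ℤ} (hx : IsRoot cs h x) (h0 : 0 ≤ x) : 0 < ht x := by
  unfold ht
  refine Finset.sum_pos' (fun k _ => h0 k) ?_
  by_contra hcon
  push Not at hcon
  refine hx.ne_zero (funext fun k => le_antisymm (hcon k (Finset.mem_univ k)) (h0 k))

theorem pos_of_ht {x : I → ℤ} (hx : IsRoot cs h x) (h0 : 0 < ht x) : 0 ≤ x := by
  rcases hx.pos_or_neg with h1 | h1
  · exact h1
  · exfalso
    have : ht x ≤ 0 := Finset.sum_nonpos fun k _ => h1 k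
    omega

theorem ht_smul_add (m a b : ℤ) {x y z : I → ℤ} (e : m • z = a • x + b • y) : m * ht z = a * ht x + b * ht y := by
  unfold ht
  rw [Finset.mul_sum, Finset.mul_sum, Finset.mul_sum, ← Finset.sum_add_distrib]
  refine Finset.sum_congr rfl fun k _ => ?_
  have := congrFun e k
  simpa using this

theorem ev_smul_add (f : I → ℝ) (m a b : ℤ) {x y z : I → ℤ} (e : m • z = a • x + b • y) :
    (m : ℝ) * ev f z = a * ev f x + b * ev f y := by
  have h1 := congrArg (ev f) e
  rw [map_add, map_zsmul, map_zsmul, map_zsmul] at h1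
  simpa using h1

/-- proportional roots -/
theorem eq_or_neg_of_smul {x y : I → ℤ} (hx : IsRoot cs h x) (hy : IsRoot cs h y) {a b : ℤ} (ha : a ≠ 0)
    (e : a • x = b • y) : x = y ∨ x = -y := by
  obtain ⟨w, i, rfl⟩ := hy
  have hx' := hx.act w⁻¹
  have e1 : a • rep cs h w⁻¹ x = b • sr i := by
    rw [← map_smul, e, map_smul, rep_inv_apply]
  have hsupp : ∀ k, k ≠ i → rep cs h w⁻¹ x k = 0 := by
    intro k hk
    have := congrFun e1 k
    rw [Pi.smul_apply, Pi.smul_apply, sr_ne hk, smul_zero, smul_eq_mul] at this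
    exact (mul_eq_zero.1 this).resolve_left ha
  rcases hx'.pos_or_neg with h0 | h0
  · left
    have h1 := hx'.eq_sr h0 i hsupp
    rw [← h1, rep_apply_inv]
  · right
    have h1 := hx'.neg.eq_sr (neg_nonneg.2 h0) i (fun k hk => by rw [Pi.neg_apply, hsupp k hk, neg_zero])
    rw [← h1, map_neg, rep_apply_inv, neg_neg]

/-- a functional with prescribed values on two independent roots -/
theorem exists_ev {x y : I → ℤ} (hx : IsRoot cs h x) (hy : IsRoot cs h y) (hxy : x ≠ y) (hxy' : x ≠ -y) (s : ℝ) :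
    ∃ f : I → ℝ, ev f x = s ∧ ev f y = 0 := by
  have hdet : ∃ i j, x i * y j - x j * y i ≠ 0 := by
    by_contra hcon
    push Not at hcon
    obtain ⟨j, hj⟩ : ∃ j, y j ≠ 0 := by
      by_contra h0
      push Not at h0
      exact hy.ne_zero (funext h0)
    have e : y j • x = x j • y := by
      funext i
      rw [Pi.smul_apply, Pi.smul_apply, smul_eq_mul, smul_eq_mul]
      linarith [hcon i j]
    rcases eq_or_neg_of_smul hx hy hj e with h1 | h1
    · exact hxy h1
    · exact hxy' h1
  obtain ⟨i, j, hd⟩ := hdet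
  have hd' : ((x i : ℝ) * y j - x j * y i) ≠ 0 := by exact_mod_cast hd
  set d : ℝ := (x i : ℝ) * y j - x j * y i with hdd
  have hval : ∀ z : I → ℤ, ev (fun k => s / d * ((if k = i then (y j : ℝ) else 0) - (if k = j then (y i : ℝ) else 0))) z =
      s / d * (z i * y j - z j * y i) := by
    intro z
    show ∑ k, (z k : ℝ) * (s / d * ((if k = i then (y j : ℝ) else 0) - (if k = j then (y i : ℝ) else 0))) = _
    have e : ∀ k, (z k : ℝ) * (s / d * ((if k = i then (y j : ℝ) else 0) - (if k = j then (y i : ℝ) else 0))) =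
        (if k = i then s / d * (z k * y j) else 0) - (if k = j then s / d * (z k * y i) else 0) := by
      intro k
      split_ifs <;> ring
    rw [Finset.sum_congr rfl fun k _ => e k, Finset.sum_sub_distrib, Finset.sum_ite_eq' Finset.univ i,
      Finset.sum_ite_eq' Finset.univ j, if_pos (Finset.mem_univ _), if_pos (Finset.mem_univ _)]
    ring
  refine ⟨fun k => s / d * ((if k = i then (y j : ℝ) else 0) - (if k = j then (y i : ℝ) else 0)), ?_, ?_⟩
  · rw [hval, ← hdd]
    exact div_mul_cancel₀ s hd'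
  · rw [hval]
    ring

section Dom

variable (R : RGD cs h p T n X) {F : (I → ℤ) → ℝ → Subgroup Y} (hF : Filt R F)

include hF

/-- **The dominant root.** -/
theorem exists_dom [Finite W] [Finite Y] [Fact p.Prime] [Nonempty I] : ∃ x : I → ℤ, IsRoot cs h x ∧ 0 ≤ x ∧
    (∀ i, 0 ≤ pairing A i x) ∧ ∃ u ∈ X x, u ≠ 1 ∧ ∀ y, IsRoot cs h y → 0 ≤ y → ∀ b ∈ X y, u * b = b * u := by
  classical
  -- the root with maximal `ht / thr`
  have hfin : {x | IsRoot cs h x}.Finite := RGD.finite_roots
  obtain ⟨i0⟩ := ‹Nonempty I›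
  obtain ⟨x, hx, hmax⟩ := Set.exists_max_image {x | IsRoot cs h x} (fun x => (ht x : ℝ) / thr F x) hfin
    ⟨sr i0, isRoot_sr cs h i0⟩
  replace hx : IsRoot cs h x := hx
  obtain ⟨ht0, htF, htlt⟩ := exists_threshold hF hx
  have hxpos : 0 < ht x := by
    have h1 := hmax (sr i0) (isRoot_sr cs h i0)
    have h2 := (exists_threshold hF (isRoot_sr cs h i0)).1
    have h3 : 0 < ht (sr i0 : I → ℤ) := ht_pos (isRoot_sr cs h i0) (sr_nonneg i0)
    have h4 : (0 : ℝ) < (ht (sr i0 : I → ℤ) : ℝ) / thr F (sr i0) := div_pos (by exact_mod_cast h3) h2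
    have h5 : (0 : ℝ) < (ht x : ℝ) / thr F x := lt_of_lt_of_le h4 h1
    have h6 : (0 : ℝ) < (ht x : ℝ) := by
      by_contra hcon
      exact absurd h5 (not_lt.2 (div_nonpos_of_nonpos_of_nonneg (not_lt.1 hcon) ht0.le))
    exact_mod_cast h6
  have hx0 : 0 ≤ x := pos_of_ht hx hxpos
  -- commutators vanish
  have hcomm : ∀ y, IsRoot cs h y → 0 ≤ y → x ≠ y → ∀ a ∈ F x (thr F x), ∀ b ∈ X y, ⁅a, b⁆ = 1 := by
    intro y hy hy0 hxy a ha b hb
    have hxy' : x ≠ -y := by
      intro e
      have : 0 < ht y := ht_pos hy hy0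
      have h1 : ht x = - ht y := by
        rw [e]
        unfold ht
        simp
      omega
    obtain ⟨f, hf1, hf2⟩ := exists_ev hx hy hxy hxy' (thr F x)
    have h1 := hF.comm f x y hx hy hxy hxy' (by rw [hf1]; exact ht0) hf2.ge a (by rw [hf1]; exact ha) b hb
    have h2 : FS (fun z => F z (ev f z)) {z | Btwn cs h x y z} = ⊥ := by
      rw [eq_bot_iff]
      unfold FS
      refine iSup_le ?_
      rintro ⟨z, hz⟩
      obtain ⟨hzr, m, c, d, hm, hc, hd, e⟩ := hz
      show F z (ev f z) ≤ ⊥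
      obtain ⟨hz0, -, hzlt⟩ := exists_threshold hF hzr
      rw [hzlt]
      have e1 := ht_smul_add m c d e
      have e2 := ev_smul_add f m c d e
      rw [hf1, hf2, mul_zero, add_zero] at e2
      have h3 := hmax z hzr
      beta_reduce at h3
      rw [div_le_div_iff₀ hz0 ht0] at h3
      have hy1 : 0 < ht y := ht_pos hy hy0
      have h4 : (c : ℝ) * ht x < m * ht z := by
        have : c * ht x < m * ht z := by
          rw [e1]
          have := mul_pos hd hy1
          omega
        exact_mod_cast this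
      have hm' : (0 : ℝ) < m := by exact_mod_cast hm
      have hxr : (0 : ℝ) < ht x := by exact_mod_cast hxpos
      -- `c ht x thr x < m ht z thr x ≤ m ht x thr z`
      have h5 : (c : ℝ) * ht x * thr F x < m * ht z * thr F x := mul_lt_mul_of_pos_right h4 ht0
      have h6 : (m : ℝ) * ht z * thr F x ≤ m * ht x * thr F z := by
        have := mul_le_mul_of_nonneg_left h3 hm'.le
        linarith
      have h7 : (ht x : ℝ) * (m * ev f z) < ht x * (m * thr F z) := by
        rw [e2]
        linarith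
      exact lt_of_mul_lt_mul_left (lt_of_mul_lt_mul_left h7 hxr.le) hm'.le
    rw [h2, Subgroup.mem_bot] at h1
    exact h1
  -- a central element
  have hpg : IsPGroup p ↥(X x) := by
    obtain ⟨w, i, e⟩ := hx
    obtain ⟨g, hg⟩ := exists_rp cs R.nsys w
    rw [e, ← R.conj_rp hg (isRoot_sr cs h i)]
    exact (R.pgrp i).map _
  have hnil : Group.IsNilpotent ↥(X x) := hpg.isNilpotent
  have hnorm : ((F x (thr F x)).subgroupOf (X x)).Normal := by
    refine ⟨fun a ha g => ?_⟩
    rw [Subgroup.mem_subgroupOf] at ha ⊢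
    exact (Subgroup.mem_normalizer_iff.1 (hF.nrm x (thr F x) hx g.2) _).1 ha
  have hle : F x (thr F x) ≤ X x := hF.le x _ hx
  have hne : (F x (thr F x)).subgroupOf (X x) ≠ ⊥ := by
    intro h0
    apply htF
    rw [Subgroup.subgroupOf_eq_bot] at h0
    have := h0.le_bot
    rw [inf_eq_left.2 hle] at this
    exact le_bot_iff.1 this
  have hc := Cfsg.Agent.Lib.NormalAbelian.normal_inf_center_ne_bot _ hne
  obtain ⟨u, hu⟩ := Subgroup.ne_bot_iff_exists_ne_one.1 hc
  obtain ⟨⟨u, hux⟩, hu1, hu2⟩ := u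
  replace hu1 : u ∈ F x (thr F x) := hu1
  refine ⟨x, hx, hx0, fun i => ?_, u, hux, fun h1 => hu (by ext; exact h1), fun y hy hy0 b hb => ?_⟩
  · -- dominance
    have h1 := hmax (rep cs h (cs.simple i) x) (hx.act _)
    beta_reduce at h1
    rw [thr_rep hF hx, ht_simple, div_le_div_iff_of_pos_right ht0] at h1
    have : ht x - pairing A i x ≤ ht x := by exact_mod_cast h1
    omega
  · by_cases hxy : x = y
    · subst hxy
      have h1 := Subgroup.mem_center_iff.1 hu2 ⟨b, hb⟩
      exact (congrArg Subtype.val h1).symm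
    · have h1 := hcomm y hy hy0 hxy u hu1 b hb
      exact commutatorElement_eq_one_iff_mul_comm.1 h1

end Dom

end Cfsg.Agent.H162.CCR.Dom
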