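import Cfsg.Agent.H162.CC.Dom

/-!
# The word of the dominant root (helper162, S3828)

* `full_support` : a dominant root has full support;
* `exists_lt_coeff` : some coefficient is greater than the pairing, if the diagram is not `A₂`;
* `exists_word`.
-/

set_option autoImplicit false
set_option linter.unusedSectionVars false

namespace Cfsg.Agent.H162.CCR.Dom

open CoxeterSystem Cfsg.Agent.ChevalleyStructure.CoxeterGeom Cfsg.Agent.Tits.Roots Cfsg.Agent.Tits.Core
  Cfsg.Agent.Tits.RootComb Cfsg.Agent.Tits.Exchange Cfsg.Agent.Nodes.Reps Cfsg.Agent.Nodes.BNOf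

variable {I W : Type*} [Fintype I] [DecidableEq I] [Group W] {M : CoxeterMatrix I}
  {cs : CoxeterSystem M W} {A : I → I → ℤ} {h : IsCartan M A}

/-- connected diagram -/
def Conn (M : CoxeterMatrix I) : Prop :=
  ∀ J : Set I, J.Nonempty → J ≠ Set.univ → ∃ a ∈ J, ∃ b, b ∉ J ∧ M a b ≠ 2

theorem full_support (hM : Conn M) {x : I → ℤ} (hx : IsRoot cs h x) (h0 : 0 ≤ x) (hd : ∀ i, 0 ≤ pairing A i x) (i : I) :
    0 < x i := by
  by_contra hi
  have hi0 : x i = 0 := le_antisymm (not_lt.1 hi) (h0 i)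
  have hne : {j | 0 < x j}.Nonempty := by
    by_contra hcon
    refine hx.ne_zero (funext fun j => le_antisymm ?_ (h0 j))
    by_contra hj
    exact hcon ⟨j, not_le.1 hj⟩
  have hun : {j | 0 < x j} ≠ Set.univ := by
    intro h1
    have : i ∈ {j | 0 < x j} := by rw [h1]; trivial
    exact hi this
  obtain ⟨a, ha, b, hb, hab⟩ := hM _ hne hun
  have hb0 : x b = 0 := le_antisymm (not_lt.1 hb) (h0 b)
  have h1 := pairing_neg h h0 hb0 ha (by rw [M.symmetric b a]; exact hab)
  exact absurd (hd b) (not_le.2 h1)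

include h in
theorem exists_lt_coeff (hM : Conn M) (hI : 2 ≤ Fintype.card I)
    (hA : ¬ ∃ i j, M i j = 3 ∧ ∀ k, k = i ∨ k = j) {x : I → ℤ} (hx : ∀ i, 0 < x i) :
    ∃ j, pairing A j x < x j := by
  classical
  by_contra hcon
  push Not at hcon
  -- `∑_{k ≠ j} (- A j k) x k ≤ x j`
  have key : ∀ j, ∑ k ∈ Finset.univ.erase j, (- A j k) * x k ≤ x j := by
    intro j
    have h1 := hcon j
    unfold pairing at h1
    rw [← Finset.add_sum_erase _ _ (Finset.mem_univ j), h.diag j] at h1
    have h2 : ∑ k ∈ Finset.univ.erase j, (- A j k) * x k = - ∑ k ∈ Finset.univ.erase j, A j k * x k := by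
      rw [← Finset.sum_neg_distrib]
      exact Finset.sum_congr rfl fun k _ => by ring
    rw [h2]
    linarith
  have hnn : ∀ j k, k ≠ j → 0 ≤ (- A j k) * x k := fun j k hk =>
    mul_nonneg (neg_nonneg.2 (cartan_nonpos h hk.symm)) (hx k).le
  have hone : ∀ j k, k ≠ j → (- A j k) * x k ≤ x j := by
    intro j k hk
    refine le_trans ?_ (key j)
    exact Finset.single_le_sum (f := fun k => (- A j k) * x k)
      (fun l hl => hnn j l (Finset.ne_of_mem_erase hl)) (Finset.mem_erase.2 ⟨hk, Finset.mem_univ k⟩)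
  have htwo : ∀ j k l, k ≠ j → l ≠ j → k ≠ l → (- A j k) * x k + (- A j l) * x l ≤ x j := by
    intro j k l hk hl hkl
    refine le_trans ?_ (key j)
    have h1 : ({k, l} : Finset I) ⊆ Finset.univ.erase j := by
      intro m hm
      rw [Finset.mem_insert, Finset.mem_singleton] at hm
      rcases hm with rfl | rfl
      · exact Finset.mem_erase.2 ⟨hk, Finset.mem_univ _⟩
      · exact Finset.mem_erase.2 ⟨hl, Finset.mem_univ _⟩
    have h2 := Finset.sum_le_sum_of_subset_of_nonneg (f := fun k => (- A j k) * x k) h1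
      (fun m hm _ => hnn j m (Finset.ne_of_mem_erase hm))
    rwa [Finset.sum_pair hkl] at h2
  -- an edge
  obtain ⟨i, i', hii⟩ := Fintype.exists_pair_of_one_lt_card (by omega : 1 < Fintype.card I)
  obtain ⟨a, ha, b, hb, hab⟩ := hM {i} ⟨i, rfl⟩ (fun h1 => hii (by
    have : i' ∈ ({i} : Set I) := by rw [h1]; trivial
    exact this.symm))
  have hba : b ≠ a := by rintro rfl; exact hb ha
  have n1 : A a b < 0 := cartan_neg h hba.symm hab
  have n2 : A b a < 0 := cartan_neg h hba (by rw [M.symmetric b a]; exact hab)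
  have e1 := hone a b hba
  have e2 := hone b a hba.symm
  have pa := hx a
  have pb := hx b
  have f1 : x b ≤ x a := by nlinarith
  have f2 : x a ≤ x b := by nlinarith
  have f3 : x a = x b := le_antisymm f2 f1
  have f4 : A a b = -1 := by
    by_contra hne
    have : A a b ≤ -2 := by omega
    nlinarith
  have f5 : A b a = -1 := by
    by_contra hne
    have : A b a ≤ -2 := by omega
    nlinarith
  have h3 : M a b = 3 := by
    rcases h.rel a b hba.symm with ⟨_, h1, _⟩ | ⟨h0, _⟩ | ⟨_, ⟨h1, h2⟩ | ⟨h1, h2⟩⟩ | ⟨_, ⟨h1, h2⟩ | ⟨h1, h2⟩⟩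
    all_goals first | exact h0 | omega
  apply hA
  refine ⟨a, b, h3, fun k => ?_⟩
  by_contra hk
  rw [not_or] at hk
  obtain ⟨c, hc, d, hd, hcd⟩ := hM {a, b} ⟨a, Or.inl rfl⟩ (fun h1 => by
    have : k ∈ ({a, b} : Set I) := by rw [h1]; trivial
    rcases this with h2 | h2
    · exact hk.1 h2
    · exact hk.2 h2)
  have hda : d ≠ a := fun h1 => hd (Or.inl h1)
  have hdb : d ≠ b := fun h1 => hd (Or.inr h1)
  have pd := hx d
  rcases hc with rfl | hc
  · have n3 := cartan_neg h hda.symm hcd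
    have := htwo c b d hba hda hdb.symm
    nlinarith
  · rw [Set.mem_singleton_iff] at hc
    subst hc
    have n3 := cartan_neg h hdb.symm hcd
    have := htwo c a d hba.symm hdb hda.symm
    nlinarith

variable (cs h) in
/-- **The word.** -/
theorem exists_word (hM : Conn M) (hI : 2 ≤ Fintype.card I)
    (hA : ¬ ∃ i j, M i j = 3 ∧ ∀ k, k = i ∨ k = j) {x : I → ℤ} (hx : IsRoot cs h x) (h0 : 0 ≤ x)
    (hd : ∀ i, 0 ≤ pairing A i x) :
    ∃ ω : List I, ω.Nodup ∧ (∀ i, i ∈ ω) ∧ 0 ≤ rep cs h (cs.wordProd ω)⁻¹ x := by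
  classical
  obtain ⟨j, hj⟩ := exists_lt_coeff (A := A) (h := h) hM hI hA (full_support hM hx h0 hd)
  refine ⟨j :: (Finset.univ.erase j).toList, ?_, ?_, ?_⟩
  · rw [List.nodup_cons]
    exact ⟨by simp, Finset.nodup_toList _⟩
  · intro i
    by_cases hi : i = j
    · rw [hi]; exact List.mem_cons_self
    · exact List.mem_cons_of_mem _ (Finset.mem_toList.2 (Finset.mem_erase.2 ⟨hi, Finset.mem_univ i⟩))
  · rw [wordProd_cons, mul_inv_rev, rep_mul_apply, inv_simple]
    have hv : (cs.wordProd (Finset.univ.erase j).toList)⁻¹ ∈ WJ cs {k | k ≠ j} :=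
      inv_mem (wordProd_mem_WJ cs fun k hk => (Finset.mem_erase.1 (Finset.mem_toList.1 hk)).1)
    have h1 := rep_apply_of_mem cs h hv (rep cs h (cs.simple j) x) (k := j) (fun h2 => h2 rfl)
    rw [rep_simple_apply_self] at h1
    have h2 : IsRoot cs h (rep cs h (cs.wordProd (Finset.univ.erase j).toList)⁻¹ (rep cs h (cs.simple j) x)) :=
      (hx.act _).act _
    rcases h2.pos_or_neg with h3 | h3
    · exact h3
    · exfalso
      have h4 : rep cs h (cs.wordProd (Finset.univ.erase j).toList)⁻¹ (rep cs h (cs.simple j) x) j ≤ 0 := h3 j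
      rw [h1] at h4
      linarith

end Cfsg.Agent.H162.CCR.Dom
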